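import Mathlib
import Cfsg.Agent.H78.Pw.Base

/-!
# S2465: `PSL₃(2)`, `PSL₃(3)`: every element is a product of two elements of order prime to 6
-/

set_option autoImplicit false

namespace Cfsg.Agent.H667.Pw

/-- explicit `3 × 3` matrices -/
@[ext] structure T (R : Type*) where
  a : R
  b : R
  c : R
  d : R
  e : R
  f : R
  g : R
  h : R
  i : R
deriving DecidableEq

namespace T

variable {R : Type*} [CommRing R]

def mul (x y : T R) : T R :=
  ⟨x.a * y.a + x.b * y.d + x.c * y.g, x.a * y.b + x.b * y.e + x.c * y.h, x.a * y.c + x.b * y.f + x.c * y.i,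
   x.d * y.a + x.e * y.d + x.f * y.g, x.d * y.b + x.e * y.e + x.f * y.h, x.d * y.c + x.e * y.f + x.f * y.i,
   x.g * y.a + x.h * y.d + x.i * y.g, x.g * y.b + x.h * y.e + x.i * y.h, x.g * y.c + x.h * y.f + x.i * y.i⟩

def one : T R := ⟨1, 0, 0, 0, 1, 0, 0, 0, 1⟩

def toM (x : T R) : Matrix (Fin 3) (Fin 3) R := !![x.a, x.b, x.c; x.d, x.e, x.f; x.g, x.h, x.i]

theorem toM_mul (x y : T R) : toM (mul x y) = toM x * toM y := by
  ext i j
  fin_cases i <;> fin_cases j <;> simp [toM, mul, Matrix.mul_apply, Fin.sum_univ_three]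

theorem toM_one : toM (one : T R) = 1 := by
  ext i j
  fin_cases i <;> fin_cases j <;> simp [toM, one]

/-- the sixth power -/
def p6 (y : T R) : T R := let y2 := mul y y; let y3 := mul y2 y; mul y3 y3
def p7 (y : T R) : T R := mul (p6 y) y
def p12 (y : T R) : T R := let z := p6 y; mul z z
def p13 (y : T R) : T R := mul (p12 y) y

theorem toM_p6 (y : T R) : toM (p6 y) = toM y ^ 6 := by
  simp only [p6, toM_mul]; noncomm_ring
theorem toM_p7 (y : T R) : toM (p7 y) = toM y ^ 7 := by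
  rw [p7, toM_mul, toM_p6, ← pow_succ]
theorem toM_p12 (y : T R) : toM (p12 y) = toM y ^ 12 := by
  simp only [p12, toM_mul, toM_p6]; rw [← pow_add]
theorem toM_p13 (y : T R) : toM (p13 y) = toM y ^ 13 := by
  rw [p13, toM_mul, toM_p12, ← pow_succ]

end T

def L13 : List (T (ZMod 3)) := [⟨0, 0, 1, 0, 1, 1, 2, 1, 1⟩, ⟨0, 0, 1, 0, 1, 1, 2, 1, 2⟩, ⟨0, 1, 2, 1, 2, 0, 1, 0, 1⟩,
  ⟨0, 2, 0, 1, 2, 1, 2, 1, 0⟩, ⟨0, 1, 0, 2, 1, 1, 1, 2, 0⟩, ⟨2, 2, 2, 1, 0, 1, 0, 1, 1⟩]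

theorem chk13 : (∀ x ∈ L13, T.p13 x = T.one) ∧ ∀ a b c d e f : ZMod 3, - (a * f - b * e) = 1 →
    ∃ x ∈ L13, T.p13 (T.mul (T.p12 x) ⟨0, a, b, 1, c, d, 0, e, f⟩) = T.one := by
  decide +kernel

def L7 : List (T (ZMod 2)) := [⟨0, 0, 1, 0, 1, 1, 1, 1, 0⟩, ⟨0, 0, 1, 0, 1, 1, 1, 1, 1⟩, ⟨0, 1, 0, 0, 0, 1, 1, 0, 1⟩,
  ⟨0, 1, 0, 0, 1, 1, 1, 0, 1⟩]

theorem chk7 : (∀ x ∈ L7, T.p7 x = T.one) ∧ ∀ a b c d e f : ZMod 2, - (a * f - b * e) = 1 →
    ∃ x ∈ L7, T.p7 (T.mul (T.p6 x) ⟨0, a, b, 1, c, d, 0, e, f⟩) = T.one := by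
  decide +kernel

section Red

variable {F : Type*} [Field F]

open Matrix

theorem exists_red (M : Matrix (Fin 3) (Fin 3) F) : (∃ c : F, M = c • (1 : Matrix (Fin 3) (Fin 3) F)) ∨
    ∃ P : Matrix (Fin 3) (Fin 3) F, IsUnit P.det ∧ ∃ a b c d e f : F,
      P⁻¹ * M * P = !![0, a, b; 1, c, d; 0, e, f] := by
  by_cases hM : ∀ v : Fin 3 → F, ¬ LinearIndependent F ![v, Matrix.toLin' M v]
  · left
    obtain ⟨a, ha⟩ := (Matrix.toLin' M).exists_eq_smul_id_of_forall_notLinearIndependent hM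
    refine ⟨a, ?_⟩
    apply Matrix.toLin'.injective
    rw [ha, map_smul, Matrix.toLin'_one]
    rfl
  · right
    push Not at hM
    obtain ⟨v, hv⟩ := hM
    obtain ⟨w, hw⟩ := exists_linearIndependent_snoc_of_lt_finrank hv (by simp)
    set P : Matrix (Fin 3) (Fin 3) F := (Matrix.of (Fin.snoc ![v, Matrix.toLin' M v] w : Fin 3 → Fin 3 → F))ᵀ with hP
    have hPu : IsUnit P := by
      rw [← Matrix.linearIndependent_cols_iff_isUnit]
      exact hw
    have hPd : IsUnit P.det := (Matrix.isUnit_iff_isUnit_det P).1 hPu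
    have hc0 : P *ᵥ ![1, 0, 0] = v := by
      rw [hP]
      ext i
      simp [Matrix.mulVec, dotProduct, Fin.sum_univ_three]
    have hc1 : P *ᵥ ![0, 1, 0] = M *ᵥ v := by
      rw [hP]
      ext i
      simp [Matrix.mulVec, dotProduct, Fin.sum_univ_three]
    have hcol : (P⁻¹ * M * P) *ᵥ ![1, 0, 0] = ![0, 1, 0] := by
      rw [Matrix.mul_assoc, ← Matrix.mulVec_mulVec, ← Matrix.mulVec_mulVec, hc0, ← hc1, Matrix.mulVec_mulVec,
        Matrix.nonsing_inv_mul P hPd, Matrix.one_mulVec]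
    set N := P⁻¹ * M * P with hN
    refine ⟨P, hPd, N 0 1, N 0 2, N 1 1, N 1 2, N 2 1, N 2 2, ?_⟩
    have h0 := congrFun hcol 0
    have h1 := congrFun hcol 1
    have h2 := congrFun hcol 2
    simp [Matrix.mulVec, dotProduct, Fin.sum_univ_three] at h0 h1 h2
    rw [← hN]
    ext i j
    fin_cases i <;> fin_cases j <;> simp [h0, h1, h2]

theorem conj_pow {P x : Matrix (Fin 3) (Fin 3) F} (hP : IsUnit P.det) (n : ℕ) :
    (P * x * P⁻¹) ^ n = P * x ^ n * P⁻¹ := by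
  induction n with
  | zero => rw [pow_zero, pow_zero, Matrix.mul_one, Matrix.mul_nonsing_inv P hP]
  | succ n ih =>
    rw [pow_succ, ih, pow_succ]
    calc P * x ^ n * P⁻¹ * (P * x * P⁻¹) = P * x ^ n * (P⁻¹ * P) * x * P⁻¹ := by simp only [Matrix.mul_assoc]
      _ = _ := by rw [Matrix.nonsing_inv_mul P hP, Matrix.mul_one]; simp only [Matrix.mul_assoc]

open Cfsg.Agent.H78.Pw in
theorem all_of_key {N n : ℕ} (hN : N.Coprime n) (hsc : ∀ c : F, c ^ 3 = 1 → c = 1)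
    (hdt : ∀ c : F, c ^ N = 1 → c = 1)
    (key : ∀ a b c d e f : F, - (a * f - b * e) = 1 → ∃ x y : Matrix (Fin 3) (Fin 3) F,
      x * y = !![0, a, b; 1, c, d; 0, e, f] ∧ x ^ N = 1 ∧ y ^ N = 1) :
    All n (Matrix.SpecialLinearGroup (Fin 3) F) := by
  intro g
  rcases exists_red (g : Matrix (Fin 3) (Fin 3) F) with ⟨c, hc⟩ | ⟨P, hP, a, b, c, d, e, f, hM⟩
  · have h1 := g.2
    rw [hc, Matrix.det_smul, Matrix.det_one, mul_one, Fintype.card_fin] at h1
    have h2 : g = 1 := by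
      apply Subtype.ext
      rw [hc, hsc c h1, one_smul]
      rfl
    rw [h2]
    exact Pr.one n
  · have hdet : - (a * f - b * e) = 1 := by
      have h1 := congrArg Matrix.det hM
      rw [Matrix.det_mul, Matrix.det_mul, g.2, mul_one, ← Matrix.det_mul, Matrix.nonsing_inv_mul P hP,
        Matrix.det_one, Matrix.det_fin_three] at h1
      simp at h1
      linear_combination -h1
    obtain ⟨x, y, hxy, hx, hy⟩ := key a b c d e f hdet
    have hcd : ∀ z : Matrix (Fin 3) (Fin 3) F, z ^ N = 1 → (P * z * P⁻¹).det = 1 := by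
      intro z hz
      have h2 := congrArg Matrix.det hz
      rw [Matrix.det_pow, Matrix.det_one] at h2
      rw [Matrix.det_mul, Matrix.det_mul, mul_right_comm, ← Matrix.det_mul, Matrix.mul_nonsing_inv P hP, Matrix.det_one,
        one_mul, hdt _ h2]
    have ho : ∀ z : Matrix (Fin 3) (Fin 3) F, z ^ N = 1 → ∃ X : Matrix.SpecialLinearGroup (Fin 3) F,
        (X : Matrix (Fin 3) (Fin 3) F) = P * z * P⁻¹ ∧ (orderOf X).Coprime n := by
      intro z hz
      obtain ⟨X, hX⟩ : ∃ X : Matrix.SpecialLinearGroup (Fin 3) F, (X : Matrix (Fin 3) (Fin 3) F) = P * z * P⁻¹ :=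
        ⟨⟨_, hcd z hz⟩, rfl⟩
      refine ⟨X, hX, Nat.Coprime.of_dvd_left (orderOf_dvd_of_pow_eq_one ?_) hN⟩
      apply Subtype.ext
      rw [Matrix.SpecialLinearGroup.coe_pow, hX, conj_pow hP, hz, Matrix.mul_one, Matrix.mul_nonsing_inv P hP]
      rfl
    obtain ⟨X, hX, hXo⟩ := ho x hx
    obtain ⟨Y, hY, hYo⟩ := ho y hy
    refine ⟨X, Y, ?_, hXo, hYo⟩
    apply Subtype.ext
    rw [Matrix.SpecialLinearGroup.coe_mul, hX, hY]
    have h3 : P * x * P⁻¹ * (P * y * P⁻¹) = P * (x * y) * P⁻¹ := by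
      calc P * x * P⁻¹ * (P * y * P⁻¹) = P * x * (P⁻¹ * P) * y * P⁻¹ := by simp only [Matrix.mul_assoc]
        _ = _ := by rw [Matrix.nonsing_inv_mul P hP, Matrix.mul_one]; simp only [Matrix.mul_assoc]
    rw [h3, hxy, ← hM]
    calc (g : Matrix (Fin 3) (Fin 3) F) = 1 * g * 1 := by rw [Matrix.one_mul, Matrix.mul_one]
      _ = (P * P⁻¹) * g * (P * P⁻¹) := by rw [Matrix.mul_nonsing_inv P hP]
      _ = _ := by simp only [Matrix.mul_assoc]

end Red

section Fin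

variable {F : Type*} [Field F] [Finite F]

open Matrix Cfsg.Agent.H78.Pw

theorem toM_map {R S : Type*} [CommRing R] [CommRing S] (φ : R →+* S) (x : T R) :
    (T.toM x).map φ = T.toM (⟨φ x.a, φ x.b, φ x.c, φ x.d, φ x.e, φ x.f, φ x.g, φ x.h, φ x.i⟩ : T S) := by
  ext i j
  fin_cases i <;> fin_cases j <;> simp [T.toM]

/-- `PSL₃(3)` -/
theorem six_psl_three_three (hF : Nat.card F = 3) : All 6 (ProjectiveSpecialLinearGroup (Fin 3) F) := by
  have : Fintype F := Fintype.ofFinite F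
  have hF' : Fintype.card F = 3 := by rw [← Nat.card_eq_fintype_card, hF]
  let ψ : ZMod 3 ≃+* F := ZMod.ringEquivOfPrime F Nat.prime_three hF'
  have tr : ∀ (n : ℕ), (∀ c : ZMod 3, c ^ n = 1 → c = 1) → ∀ c : F, c ^ n = 1 → c = 1 := by
    intro n hn c hc
    have h1 := hn (ψ.symm c) (by rw [← map_pow, hc, map_one])
    rw [← ψ.apply_symm_apply c, h1, map_one]
  have hall : All 6 (Matrix.SpecialLinearGroup (Fin 3) F) := by
    refine all_of_key (N := 13) (by decide) (tr 3 (by decide)) (tr 13 (by decide)) ?_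
    intro a b c d e f hd
    obtain ⟨x, hx, h13⟩ := chk13.2 (ψ.symm a) (ψ.symm b) (ψ.symm c) (ψ.symm d) (ψ.symm e) (ψ.symm f) (by
      rw [← map_mul, ← map_mul, ← map_sub, ← map_neg, hd, map_one])
    have hx13 := chk13.1 x hx
    set z : T (ZMod 3) := ⟨0, ψ.symm a, ψ.symm b, 1, ψ.symm c, ψ.symm d, 0, ψ.symm e, ψ.symm f⟩ with hz
    have e1 : T.toM x ^ 13 = 1 := by rw [← T.toM_p13, hx13, T.toM_one]
    have e2 : (T.toM x ^ 12 * T.toM z) ^ 13 = 1 := by rw [← T.toM_p12, ← T.toM_mul, ← T.toM_p13, h13, T.toM_one]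
    have hmap : ∀ A B : Matrix (Fin 3) (Fin 3) (ZMod 3),
        (A * B).map (ψ : ZMod 3 →+* F) = A.map (ψ : ZMod 3 →+* F) * B.map (ψ : ZMod 3 →+* F) := fun A B => Matrix.map_mul
    refine ⟨((ψ : ZMod 3 →+* F)).mapMatrix (T.toM x), ((ψ : ZMod 3 →+* F)).mapMatrix (T.toM x ^ 12 * T.toM z), ?_, ?_, ?_⟩
    · rw [← map_mul, ← mul_assoc, ← pow_succ', e1, one_mul, RingHom.mapMatrix_apply, toM_map]
      simp [T.toM, hz]
    · rw [← map_pow, e1, map_one]
    · rw [← map_pow, e2, map_one]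
  exact All.of_surjective _ (QuotientGroup.mk'_surjective _) hall

/-- `PSL₃(2)` -/
theorem six_psl_three_two (hF : Nat.card F = 2) : All 6 (ProjectiveSpecialLinearGroup (Fin 3) F) := by
  have : Fintype F := Fintype.ofFinite F
  have hF' : Fintype.card F = 2 := by rw [← Nat.card_eq_fintype_card, hF]
  let ψ : ZMod 2 ≃+* F := ZMod.ringEquivOfPrime F Nat.prime_two hF'
  have tr : ∀ (n : ℕ), (∀ c : ZMod 2, c ^ n = 1 → c = 1) → ∀ c : F, c ^ n = 1 → c = 1 := by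
    intro n hn c hc
    have h1 := hn (ψ.symm c) (by rw [← map_pow, hc, map_one])
    rw [← ψ.apply_symm_apply c, h1, map_one]
  have hall : All 6 (Matrix.SpecialLinearGroup (Fin 3) F) := by
    refine all_of_key (N := 7) (by decide) (tr 3 (by decide)) (tr 7 (by decide)) ?_
    intro a b c d e f hd
    obtain ⟨x, hx, h13⟩ := chk7.2 (ψ.symm a) (ψ.symm b) (ψ.symm c) (ψ.symm d) (ψ.symm e) (ψ.symm f) (by
      rw [← map_mul, ← map_mul, ← map_sub, ← map_neg, hd, map_one])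
    have hx13 := chk7.1 x hx
    set z : T (ZMod 2) := ⟨0, ψ.symm a, ψ.symm b, 1, ψ.symm c, ψ.symm d, 0, ψ.symm e, ψ.symm f⟩ with hz
    have e1 : T.toM x ^ 7 = 1 := by rw [← T.toM_p7, hx13, T.toM_one]
    have e2 : (T.toM x ^ 6 * T.toM z) ^ 7 = 1 := by rw [← T.toM_p6, ← T.toM_mul, ← T.toM_p7, h13, T.toM_one]
    refine ⟨((ψ : ZMod 2 →+* F)).mapMatrix (T.toM x), ((ψ : ZMod 2 →+* F)).mapMatrix (T.toM x ^ 6 * T.toM z), ?_, ?_, ?_⟩
    · rw [← map_mul, ← mul_assoc, ← pow_succ', e1, one_mul, RingHom.mapMatrix_apply, toM_map]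
      simp [T.toM, hz]
    · rw [← map_pow, e1, map_one]
    · rw [← map_pow, e2, map_one]
  exact All.of_surjective _ (QuotientGroup.mk'_surjective _) hall

end Fin

end Cfsg.Agent.H667.Pw
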